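import Mathlib
import Cfsg.Agent.S3993
import Cfsg.Agent.Lib.Basic.ConjCount

/-!
# Counting elements of a given order

`sc G m` is the number of elements of order `m` of `G`. Basic divisibility facts: `φ m ∣ sc G m`,
Frobenius' theorem in the form `m ∣ ∑ d ∣ m, sc G d`, the relation with the number of Sylow
subgroups, and the centralizer facts needed for the recognition of small alternating groups.
-/

set_option autoImplicit false

namespace Cfsg.Agent.Lib.NSE.Basic

variable {G : Type*} [Group G]

/-- The number of elements of order `m`. -/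
noncomputable def sc (G : Type*) [Group G] (m : ℕ) : ℕ := Nat.card {g : G // orderOf g = m}

section
variable [Finite G]

theorem sc_ne_zero_iff {m : ℕ} : sc G m ≠ 0 ↔ ∃ g : G, orderOf g = m := by
  unfold sc
  rw [Ne, Nat.card_eq_zero]
  constructor
  · intro h
    have : Nonempty {g : G // orderOf g = m} := by
      by_contra h2
      exact h (Or.inl (not_nonempty_iff.mp h2))
    obtain ⟨⟨g, hg⟩⟩ := this
    exact ⟨g, hg⟩
  · rintro ⟨g, hg⟩ (h | h)
    · exact h.false ⟨g, hg⟩
    · exact not_finite_iff_infinite.mpr h inferInstance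

theorem sc_eq_zero_iff {m : ℕ} : sc G m = 0 ↔ ∀ g : G, orderOf g ≠ m := by
  have := sc_ne_zero_iff (G := G) (m := m)
  constructor
  · intro h g hg
    exact this.mpr ⟨g, hg⟩ h
  · intro h
    by_contra h2
    obtain ⟨g, hg⟩ := this.mp h2
    exact h g hg

theorem sc_one : sc G 1 = 1 := by
  unfold sc
  have : Nat.card {g : G // orderOf g = 1} = Nat.card {g : G // g = 1} := by
    refine Nat.card_congr (Equiv.subtypeEquivRight fun g => orderOf_eq_one_iff)
  rw [this]
  simp

theorem sc_zero : sc G 0 = 0 := by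
  rw [sc_eq_zero_iff]
  intro g
  exact (orderOf_pos g).ne'

theorem dvd_card_of_sc_ne_zero {m : ℕ} (h : sc G m ≠ 0) : m ∣ Nat.card G := by
  obtain ⟨g, rfl⟩ := sc_ne_zero_iff.mp h
  exact orderOf_dvd_natCard g

theorem sc_eq_zero_of_not_dvd {m : ℕ} (h : ¬ m ∣ Nat.card G) : sc G m = 0 := by
  by_contra h2
  exact h (dvd_card_of_sc_ne_zero h2)

theorem sc_ne_zero_of_dvd {m d : ℕ} (h : sc G m ≠ 0) (hd : d ∣ m) : sc G d ≠ 0 := by
  obtain ⟨g, rfl⟩ := sc_ne_zero_iff.mp h
  exact sc_ne_zero_iff.mpr ⟨_, orderOf_pow_orderOf_div (orderOf_pos g).ne' hd⟩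

theorem sc_eq_zero_of_dvd {m d : ℕ} (h : sc G d = 0) (hd : d ∣ m) : sc G m = 0 := by
  by_contra h2
  exact sc_ne_zero_of_dvd h2 hd h

theorem sc_ne_zero_of_prime {p : ℕ} (hp : p.Prime) (h : p ∣ Nat.card G) : sc G p ≠ 0 := by
  have : Fact p.Prime := ⟨hp⟩
  obtain ⟨g, hg⟩ := exists_prime_orderOf_dvd_card' (G := G) p h
  exact sc_ne_zero_iff.mpr ⟨g, hg⟩

/-- The generators of a cyclic subgroup. -/
theorem card_generators (H : Subgroup G) [IsCyclic H] :
    Nat.card {g : G // orderOf g = Nat.card H ∧ Subgroup.zpowers g = H} = (Nat.card H).totient := by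
  classical
  have : Fintype H := Fintype.ofFinite H
  have h1 := IsCyclic.card_orderOf_eq_totient (α := H) (d := Nat.card H)
    (by rw [Nat.card_eq_fintype_card])
  rw [← h1]
  have h2 : Nat.card {y : H // orderOf y = Nat.card H} =
      (Finset.univ.filter (fun y : H => orderOf y = Nat.card H)).card :=
    Nat.subtype_card _ (by simp)
  rw [← h2]
  have hz : ∀ y : H, orderOf y = Nat.card H → Subgroup.zpowers (y : G) = H := by
    intro y hy
    apply Subgroup.eq_of_le_of_card_ge (Subgroup.zpowers_le.mpr y.2)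
    rw [Nat.card_zpowers, Subgroup.orderOf_coe, hy]
  refine Nat.card_congr
    { toFun := fun g => ⟨⟨g.1, by
          have h := g.2.2
          have h2 : g.1 ∈ Subgroup.zpowers g.1 := Subgroup.mem_zpowers _
          rw [h] at h2
          exact h2⟩, by
        rw [← Subgroup.orderOf_coe]; exact g.2.1⟩
      invFun := fun y => ⟨(y.1 : G), by rw [Subgroup.orderOf_coe]; exact y.2, hz y.1 y.2⟩
      left_inv := fun g => rfl
      right_inv := fun y => rfl }

/-- Fibres of a map out of the elements of order `m`. -/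
theorem card_fiberwise {α : Type*} [Finite α] (X : Type*) [Finite X] (f : X → α) :
    Nat.card X = ∑ᶠ a : α, Nat.card {x : X // f x = a} := by
  classical
  have := Fintype.ofFinite α
  rw [finsum_eq_sum_of_fintype, Nat.card_congr (Equiv.sigmaFiberEquiv f).symm, Nat.card_sigma]

theorem totient_dvd_sc (m : ℕ) : m.totient ∣ sc G m := by
  classical
  have := Fintype.ofFinite (Subgroup G)
  let f : {g : G // orderOf g = m} → Subgroup G := fun g => Subgroup.zpowers g.1
  unfold sc
  rw [card_fiberwise _ f, finsum_eq_sum_of_fintype]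
  refine Finset.dvd_sum fun H _ => ?_
  by_cases hH : ∃ x : {g : G // orderOf g = m}, f x = H
  · obtain ⟨x, hx⟩ := hH
    have hc : Nat.card H = m := by
      rw [← hx, Nat.card_zpowers]; exact x.2
    have : IsCyclic H := by rw [← hx]; exact Subgroup.isCyclic_zpowers _
    have := card_generators (G := G) H
    rw [hc] at this
    rw [← this]
    refine dvd_of_eq (Nat.card_congr ?_)
    exact
      { invFun := fun y => ⟨y.1.1, y.1.2, y.2⟩
        toFun := fun g => ⟨⟨g.1, g.2.1⟩, g.2.2⟩
        left_inv := fun y => rfl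
        right_inv := fun g => rfl }
  · have : IsEmpty {x : {g : G // orderOf g = m} // f x = H} :=
      ⟨fun y => hH ⟨y.1, y.2⟩⟩
    rw [Nat.card_of_isEmpty]
    exact dvd_zero _

/-- Number of elements with `g ^ m = 1`. -/
theorem card_pow_eq_one {m : ℕ} (hm : m ≠ 0) :
    Nat.card {g : G // g ^ m = 1} = ∑ d ∈ m.divisors, sc G d := by
  classical
  have := Fintype.ofFinite G
  have h1 : Nat.card {g : G // g ^ m = 1} =
      ((Finset.univ : Finset G).filter (fun g => g ^ m = 1)).card :=
    Nat.subtype_card _ (by simp)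
  rw [h1, Finset.card_eq_sum_card_fiberwise (f := orderOf) (t := m.divisors)]
  · refine Finset.sum_congr rfl fun d hd => ?_
    have hd' := (Nat.mem_divisors.mp hd).1
    unfold sc
    symm
    apply Nat.subtype_card
    intro x
    simp only [Finset.mem_filter, Finset.mem_univ, true_and]
    constructor
    · exact fun h => h.2
    · intro h
      refine ⟨?_, h⟩
      rw [← h] at hd'
      exact orderOf_dvd_iff_pow_eq_one.mp hd'
  · intro x hx
    have hx' : x ^ m = 1 := by simpa using hx
    exact Nat.mem_divisors.mpr ⟨orderOf_dvd_of_pow_eq_one hx', hm⟩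

/-- Frobenius' theorem. -/
theorem frob {m : ℕ} (hm : m ∣ Nat.card G) : m ∣ ∑ d ∈ m.divisors, sc G d := by
  have hm0 : m ≠ 0 := by
    rintro rfl
    exact Nat.card_pos.ne' (zero_dvd_iff.mp hm)
  rw [← card_pow_eq_one hm0]
  exact Cfsg.Agent.S3993.result m hm

theorem card_eq_sum : Nat.card G = ∑ d ∈ (Nat.card G).divisors, sc G d := by
  rw [← card_pow_eq_one Nat.card_pos.ne']
  symm
  have : ∀ g : G, g ^ Nat.card G = 1 := fun g => pow_card_eq_one'
  exact Nat.card_congr (Equiv.subtypeUnivEquiv this)

/-- If all orders lie in `L` the order of the group is the sum over `L`. -/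
theorem card_eq_sum_of (L : Finset ℕ) (h : ∀ m, sc G m ≠ 0 → m ∈ L) :
    Nat.card G = ∑ d ∈ L, sc G d := by
  classical
  have := Fintype.ofFinite G
  rw [Nat.card_eq_fintype_card, ← Finset.card_univ,
    Finset.card_eq_sum_card_fiberwise (f := orderOf) (t := L)]
  · refine Finset.sum_congr rfl fun d _ => ?_
    unfold sc
    symm
    apply Nat.subtype_card
    intro x
    simp
  · intro x _
    exact h _ (sc_ne_zero_iff.mpr ⟨x, rfl⟩)

theorem sum_le (L : Finset ℕ) : ∑ d ∈ L, sc G d ≤ Nat.card G := by
  classical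
  rw [card_eq_sum_of (G := G) (L ∪ (Nat.card G).divisors)]
  · exact Finset.sum_le_sum_of_subset Finset.subset_union_left
  · intro m hm
    exact Finset.mem_union_right _
      (Nat.mem_divisors.mpr ⟨dvd_card_of_sc_ne_zero hm, Nat.card_pos.ne'⟩)

/-- A cyclic Sylow subgroup: count of generators. -/
theorem sc_sylow (p k : ℕ) [hp : Fact p.Prime] (h1 : p ^ k ∣ Nat.card G)
    (h2 : ¬ p ^ (k + 1) ∣ Nat.card G) (h3 : sc G (p ^ k) ≠ 0) :
    sc G (p ^ k) = (p ^ k).totient * Nat.card (Sylow p G) := by
  classical
  have := Fintype.ofFinite (Sylow p G)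
  have hfac : (Nat.card G).factorization p = k := by
    have h0 : Nat.card G ≠ 0 := Nat.card_pos.ne'
    apply le_antisymm
    · by_contra hlt
      push Not at hlt
      exact h2 ((Nat.Prime.pow_dvd_iff_le_factorization hp.out h0).mpr hlt)
    · exact (Nat.Prime.pow_dvd_iff_le_factorization hp.out h0).mp h1
  have hcard : ∀ g : {g : G // orderOf g = p ^ k},
      Nat.card (Subgroup.zpowers g.1) = p ^ (Nat.card G).factorization p := by
    intro g
    rw [Nat.card_zpowers, g.2, hfac]
  let f : {g : G // orderOf g = p ^ k} → Sylow p G := fun g => Sylow.ofCard _ (hcard g)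
  obtain ⟨x0, hx0⟩ := sc_ne_zero_iff.mp h3
  let P0 : Sylow p G := f ⟨x0, hx0⟩
  have hP0 : (P0 : Subgroup G) = Subgroup.zpowers x0 := rfl
  have hcyc : ∀ Q : Sylow p G, IsCyclic Q := by
    intro Q
    have h0 : IsCyclic P0 := by
      show IsCyclic (P0 : Subgroup G)
      rw [hP0]
      exact Subgroup.isCyclic_zpowers _
    exact isCyclic_of_surjective (Sylow.equiv P0 Q) (Sylow.equiv P0 Q).surjective
  have hQ : ∀ Q : Sylow p G, Nat.card Q = p ^ k := by
    intro Q
    rw [Q.card_eq_multiplicity, hfac]
  unfold sc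
  rw [card_fiberwise _ f, finsum_eq_sum_of_fintype]
  rw [Finset.sum_congr rfl (g := fun _ => (p ^ k).totient), Finset.sum_const, smul_eq_mul,
    Finset.card_univ, mul_comm, Nat.card_eq_fintype_card]
  intro Q _
  have := hcyc Q
  have h4 := card_generators (G := G) (Q : Subgroup G)
  have h5 : Nat.card (Q : Subgroup G) = p ^ k := hQ Q
  rw [h5] at h4
  rw [← h4]
  refine Nat.card_congr ?_
  exact
    { toFun := fun y => ⟨y.1.1, y.1.2, by
        have := congrArg (fun R : Sylow p G => (R : Subgroup G)) y.2
        exact this⟩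
      invFun := fun g => ⟨⟨g.1, g.2.1⟩, Sylow.ext g.2.2⟩
      left_inv := fun y => rfl
      right_inv := fun g => rfl }

/-- If `d` divides the index of the centralizer of each element of order `m` then `d ∣ sc G m`. -/
theorem dvd_sc_of_index (m d : ℕ)
    (h : ∀ x : G, orderOf x = m → d ∣ (Subgroup.centralizer ({x} : Set G)).index) :
    d ∣ sc G m := by
  classical
  have := Fintype.ofFinite (ConjClasses G)
  let f : {g : G // orderOf g = m} → ConjClasses G := fun g => ConjClasses.mk g.1
  unfold sc
  rw [card_fiberwise _ f, finsum_eq_sum_of_fintype]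
  refine Finset.dvd_sum fun c _ => ?_
  by_cases hc : ∃ x : {g : G // orderOf g = m}, f x = c
  · obtain ⟨x, rfl⟩ := hc
    have h1 := Cfsg.Agent.Lib.Basic.ConjCount.card_isConj_mul_card_centralizer x.1
    have h2 := Subgroup.card_mul_index (Subgroup.centralizer ({x.1} : Set G))
    have h3 : Nat.card {y : G // IsConj x.1 y} = (Subgroup.centralizer ({x.1} : Set G)).index := by
      have hpos : 0 < Nat.card (Subgroup.centralizer ({x.1} : Set G)) := Nat.card_pos
      rw [mul_comm] at h2
      exact Nat.eq_of_mul_eq_mul_right hpos (h1.trans h2.symm)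
    have h4 : Nat.card {y : {g : G // orderOf g = m} // f y = f x} =
        Nat.card {y : G // IsConj x.1 y} := by
      refine Nat.card_congr ?_
      exact
        { toFun := fun y => ⟨y.1.1, by
            have := ConjClasses.mk_eq_mk_iff_isConj.mp y.2
            exact this.symm⟩
          invFun := fun y => ⟨⟨y.1,
            (Cfsg.Agent.Lib.Basic.ConjCount.orderOf_eq_of_isConj y.2).symm.trans x.2⟩,
            ConjClasses.mk_eq_mk_iff_isConj.mpr y.2.symm⟩
          left_inv := fun y => rfl
          right_inv := fun y => rfl }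
    rw [h4, h3]
    exact h _ x.2
  · have : IsEmpty {x : {g : G // orderOf g = m} // f x = c} :=
      ⟨fun y => hc ⟨y.1, y.2⟩⟩
    rw [Nat.card_of_isEmpty]
    exact dvd_zero _

/-- The number of Sylow `p`-subgroups divides `sc G (p * m)` when `p` divides the order exactly once
and `p` does not divide `m`. -/
theorem sylow_dvd_sc (p m : ℕ) [hp : Fact p.Prime] (h2 : ¬ p ^ 2 ∣ Nat.card G) (hm : ¬ p ∣ m) :
    Nat.card (Sylow p G) ∣ sc G (p * m) := by
  classical
  apply dvd_sc_of_index
  intro x hx
  have hm0 : m ≠ 0 := by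
    rintro rfl
    exact hm (dvd_zero _)
  have hy : orderOf (x ^ m) = p := by
    have := orderOf_pow_orderOf_div (x := x) (n := p) (by rw [hx]; exact mul_ne_zero hp.out.ne_zero hm0)
      (by rw [hx]; exact dvd_mul_right _ _)
    rwa [hx, Nat.mul_div_cancel_left _ hp.out.pos] at this
  have hfac : (Nat.card G).factorization p = 1 := by
    have h0 : Nat.card G ≠ 0 := Nat.card_pos.ne'
    apply le_antisymm
    · by_contra hlt
      push Not at hlt
      exact h2 ((Nat.Prime.pow_dvd_iff_le_factorization hp.out h0).mpr hlt)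
    · apply (Nat.Prime.pow_dvd_iff_le_factorization hp.out h0).mp
      rw [pow_one, ← hy]
      exact orderOf_dvd_natCard _
  have hc : Nat.card (Subgroup.zpowers (x ^ m)) = p ^ (Nat.card G).factorization p := by
    rw [Nat.card_zpowers, hy, hfac, pow_one]
  let Q : Sylow p G := Sylow.ofCard _ hc
  rw [Q.card_eq_index_normalizer]
  apply Subgroup.index_dvd_of_le
  intro z hz
  rw [Subgroup.mem_centralizer_singleton_iff] at hz
  have hcomm : z * (x ^ m) * z⁻¹ = x ^ m := by
    have : Commute z x := hz
    rw [(this.pow_right m).eq, mul_inv_cancel_right]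
  show z ∈ Subgroup.normalizer ((Subgroup.zpowers (x ^ m) : Subgroup G) : Set G)
  rw [Subgroup.mem_normalizer_iff]
  intro w
  constructor
  · intro hw
    obtain ⟨k, rfl⟩ := Subgroup.mem_zpowers_iff.mp hw
    refine Subgroup.mem_zpowers_iff.mpr ⟨k, ?_⟩
    rw [← conj_zpow, hcomm]
  · intro hw
    obtain ⟨k, hk⟩ := Subgroup.mem_zpowers_iff.mp hw
    refine Subgroup.mem_zpowers_iff.mpr ⟨k, ?_⟩
    have h5 : z * (x ^ m) ^ k * z⁻¹ = (x ^ m) ^ k := by
      rw [← conj_zpow, hcomm]
    have h6 : z * (x ^ m) ^ k * z⁻¹ = z * w * z⁻¹ := by rw [h5]; exact hk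
    simpa using h6

/-- Under the hypothesis that no element of order `p * q` exists for primes `q ≠ p`,
and `p ^ 2 ∤ #G`, the centralizer of an element of order `p` has order `p`. -/
theorem card_centralizer_eq (p : ℕ) [hp : Fact p.Prime] (h2 : ¬ p ^ 2 ∣ Nat.card G)
    (hno : ∀ q : ℕ, q.Prime → q ≠ p → sc G (p * q) = 0) (y : G) (hy : orderOf y = p) :
    Nat.card (Subgroup.centralizer ({y} : Set G)) = p := by
  classical
  set H := Subgroup.centralizer ({y} : Set G) with hH
  have hyH : y ∈ H := by
    rw [hH, Subgroup.mem_centralizer_singleton_iff]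
  have hpd : p ∣ Nat.card H := by
    have := orderOf_dvd_natCard (⟨y, hyH⟩ : H)
    rwa [Subgroup.orderOf_mk, hy] at this
  have hone : ∀ q : ℕ, q.Prime → q ∣ Nat.card H → q = p := by
    intro q hq hqd
    by_contra hne
    have := Fact.mk hq
    obtain ⟨z, hz⟩ := exists_prime_orderOf_dvd_card' (G := H) q hqd
    have hz' : orderOf (z : G) = q := by rwa [Subgroup.orderOf_coe]
    have hc : Commute y (z : G) := by
      have := z.2
      exact (Subgroup.mem_centralizer_singleton_iff.mp this).symm
    have hcop : Nat.Coprime (orderOf y) (orderOf (z : G)) := by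
      rw [hy, hz']
      exact (Nat.coprime_primes hp.out hq).mpr (Ne.symm hne)
    have := hc.orderOf_mul_eq_mul_orderOf_of_coprime hcop
    rw [hy, hz'] at this
    exact (hno q hq hne) |> fun h0 => (sc_ne_zero_iff.mpr ⟨_, this⟩) h0
  have hk := Nat.eq_prime_pow_of_unique_prime_dvd (Nat.card_pos (α := H)).ne' (fun {d} hd hdd => hone d hd hdd)
  set k := (Nat.card H).primeFactorsList.length with hkdef
  have hle : k ≤ 1 := by
    by_contra hlt
    push Not at hlt
    apply h2
    have h3 : p ^ 2 ∣ Nat.card H := by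
      rw [hk]
      exact pow_dvd_pow _ hlt
    exact h3.trans (Subgroup.card_subgroup_dvd_card H)
  have hk0 : k ≠ 0 := by
    intro h0
    rw [h0, pow_zero] at hk
    rw [hk] at hpd
    exact hp.out.one_lt.ne' (Nat.dvd_one.mp hpd)
  have : k = 1 := by omega
  rw [hk, this, pow_one]

/-- The class of an element of order `m` is contained in the elements of order `m`. -/
theorem index_centralizer_le (y : G) :
    (Subgroup.centralizer ({y} : Set G)).index ≤ sc G (orderOf y) := by
  classical
  have h1 := Cfsg.Agent.Lib.Basic.ConjCount.card_isConj_mul_card_centralizer y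
  have h2 := Subgroup.card_mul_index (Subgroup.centralizer ({y} : Set G))
  have h3 : Nat.card {z : G // IsConj y z} = (Subgroup.centralizer ({y} : Set G)).index := by
    have hpos : 0 < Nat.card (Subgroup.centralizer ({y} : Set G)) := Nat.card_pos
    rw [mul_comm] at h2
    exact Nat.eq_of_mul_eq_mul_right hpos (h1.trans h2.symm)
  rw [← h3]
  unfold sc
  exact Nat.card_le_card_of_injective
    (fun z : {z : G // IsConj y z} =>
      (⟨z.1, (Cfsg.Agent.Lib.Basic.ConjCount.orderOf_eq_of_isConj z.2).symm⟩ :
        {g : G // orderOf g = orderOf y}))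
    (fun a b hab => Subtype.ext (congrArg (fun z : {g : G // orderOf g = orderOf y} => z.1) hab))

/-- Elements of order prime to the index of a normal subgroup lie in it. -/
theorem mem_of_coprime (K : Subgroup G) [K.Normal] (x : G)
    (h : Nat.Coprime (orderOf x) K.index) : x ∈ K := by
  have h1 : orderOf (QuotientGroup.mk x : G ⧸ K) ∣ orderOf x :=
    orderOf_map_dvd (QuotientGroup.mk' K) x
  have h2 : orderOf (QuotientGroup.mk x : G ⧸ K) ∣ K.index := by
    rw [Subgroup.index_eq_card]
    exact orderOf_dvd_natCard _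
  have h3 : orderOf (QuotientGroup.mk x : G ⧸ K) = 1 :=
    Nat.eq_one_of_dvd_coprimes h h1 h2
  rw [orderOf_eq_one_iff] at h3
  exact (QuotientGroup.eq_one_iff x).mp h3

/-- Counting elements of `K` of orders prime to the index. -/
theorem sc_le_sc_of_coprime (K : Subgroup G) [K.Normal] (d : ℕ) (h : Nat.Coprime d K.index) :
    sc G d ≤ sc K d := by
  unfold sc
  refine Nat.card_le_card_of_injective
    (fun x : {g : G // orderOf g = d} =>
      (⟨⟨x.1, mem_of_coprime K x.1 (by rw [x.2]; exact h)⟩, by
        rw [Subgroup.orderOf_mk]; exact x.2⟩ : {g : K // orderOf g = d})) ?_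
  intro a b hab
  exact Subtype.ext (congrArg (fun z : {g : K // orderOf g = d} => (z.1 : G)) hab)

/-- The conjugacy class of an element of a normal subgroup. -/
theorem index_centralizer_le_of_mem (K : Subgroup G) [hK : K.Normal] (y : K) :
    (Subgroup.centralizer ({(y : G)} : Set G)).index ≤ sc K (orderOf y) := by
  classical
  have h1 := Cfsg.Agent.Lib.Basic.ConjCount.card_isConj_mul_card_centralizer (y : G)
  have h2 := Subgroup.card_mul_index (Subgroup.centralizer ({(y : G)} : Set G))
  have h3 : Nat.card {z : G // IsConj (y : G) z} =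
      (Subgroup.centralizer ({(y : G)} : Set G)).index := by
    have hpos : 0 < Nat.card (Subgroup.centralizer ({(y : G)} : Set G)) := Nat.card_pos
    rw [mul_comm] at h2
    exact Nat.eq_of_mul_eq_mul_right hpos (h1.trans h2.symm)
  rw [← h3]
  unfold sc
  have hmem : ∀ z : {z : G // IsConj (y : G) z}, z.1 ∈ K := by
    rintro ⟨z, hz⟩
    obtain ⟨c, rfl⟩ := isConj_iff.mp hz
    exact hK.conj_mem _ y.2 c
  refine Nat.card_le_card_of_injective
    (fun z : {z : G // IsConj (y : G) z} =>
      (⟨⟨z.1, hmem z⟩, by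
        rw [Subgroup.orderOf_mk, ← Subgroup.orderOf_coe]
        exact (Cfsg.Agent.Lib.Basic.ConjCount.orderOf_eq_of_isConj z.2).symm⟩ :
        {g : K // orderOf g = orderOf y})) ?_
  intro a b hab
  exact Subtype.ext (congrArg (fun z : {g : K // orderOf g = orderOf y} => (z.1 : G)) hab)

/-- A subgroup of order `p` acting on a normal subgroup with trivial centralizer:
the order of the normal subgroup is `1` mod `p`. -/
theorem card_modEq_one_of_fixedPointFree (K : Subgroup G) [hK : K.Normal] (p : ℕ) [hp : Fact p.Prime]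
    (y : G) (hy : orderOf y = p) (hfree : ∀ z : G, z ∈ K → z * y = y * z → z = 1) :
    Nat.card K ≡ 1 [MOD p] := by
  classical
  let T : Subgroup (ConjAct G) := Subgroup.zpowers (ConjAct.toConjAct y)
  have hT : Nat.card T = p := by
    rw [Nat.card_zpowers]
    have : orderOf (ConjAct.toConjAct y) = orderOf y :=
      orderOf_injective (ConjAct.toConjAct (G := G)).toMonoidHom
        (ConjAct.toConjAct (G := G)).injective y
    rw [this, hy]
  have hpT : IsPGroup p T := IsPGroup.of_card (n := 1) (by rw [hT, pow_one])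
  have h1 := hpT.card_modEq_card_fixedPoints K
  have h2 : Nat.card (MulAction.fixedPoints T K) = 1 := by
    rw [Nat.card_eq_one_iff_unique]
    refine ⟨⟨?_⟩, ⟨⟨1, ?_⟩⟩⟩
    · rintro ⟨a, ha⟩ ⟨b, hb⟩
      have hfix : ∀ a : K, a ∈ MulAction.fixedPoints T K → (a : G) = 1 := by
        intro a ha
        apply hfree _ a.2
        have := ha ⟨ConjAct.toConjAct y, Subgroup.mem_zpowers _⟩
        have h3 : (ConjAct.toConjAct y) • a = a := this
        have h4 := congrArg (Subtype.val) h3
        rw [ConjAct.Subgroup.val_conj_smul, ConjAct.smul_def] at h4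
        simp only [ConjAct.ofConjAct_toConjAct] at h4
        have h5 : y * (a : G) = (a : G) * y := by
          calc y * (a : G) = (y * (a : G) * y⁻¹) * y := by group
            _ = (a : G) * y := by rw [h4]
        exact h5.symm
      apply Subtype.ext
      apply Subtype.ext
      rw [hfix a ha, hfix b hb]
    · intro t
      exact smul_one _
  rw [h2] at h1
  exact h1

end

end Cfsg.Agent.Lib.NSE.Basic
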